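import Mathlib
import Cfsg.Prelude.Def_Local
import Cfsg.Agent.Lib.HallHigman.Layer
import Cfsg.Agent.Lib.Coprime.Coset
import Cfsg.Agent.Lib.Coprime.Three

/-!
# An element `g ^ p ^ b` below the top of the exponent does not move `r`-subgroups

Let `K` be solvable with `O_{p'}(K) = 1` and all `p`-elements of order dividing `p ^ (b + 1)`.
If a `p`-element `g` normalises an `r`-subgroup `R`, then `g ^ p ^ b` centralises `R` (apart from the
exception of Hall-Higman Theorem B, which cannot occur when `p, r` are odd, or `R` is abelian).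
-/

set_option autoImplicit false
set_option linter.unusedSectionVars false
set_option linter.style.haveILetI false

namespace Cfsg.Agent.Lib.TwoGen.NoMove

open Cfsg Cfsg.Agent.Lib.HallHigman.Layer Cfsg.Agent.Lib.Solvable.PSeries Cfsg.Agent.Lib.Basic.PCore
  Cfsg.Agent.Lib.Coprime.Coset Cfsg.Agent.Lib.Coprime.Three
open Module (End)
open scoped commutatorElement

theorem top_pow_mem_zpowers {H : Type*} [Group H] [Finite H] {p : ℕ} [hp : Fact p.Prime] {g x : H} {b : ℕ}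
    (hg : orderOf g = p ^ (b + 1)) (hx : x ∈ Subgroup.zpowers g) (hx1 : x ≠ 1) :
    g ^ p ^ b ∈ Subgroup.zpowers x := by
  obtain ⟨i, rfl⟩ : ∃ i : ℕ, g ^ i = x := (mem_powers_iff_mem_zpowers.mpr hx)
  have hi : i ≠ 0 := by
    rintro rfl
    exact hx1 (pow_zero g)
  obtain ⟨e, u, hu, rfl⟩ := Nat.exists_eq_pow_mul_and_not_dvd hi p hp.out.ne_one
  have heb : e ≤ b := by
    by_contra hcon
    apply hx1
    apply orderOf_dvd_iff_pow_eq_one.mp
    rw [hg]
    exact Dvd.dvd.mul_right (pow_dvd_pow p (by omega)) u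
  set v := g ^ p ^ b with hv
  have hvp : v ^ p = 1 := by
    rw [hv, ← pow_mul, ← pow_succ, ← hg, pow_orderOf_eq_one]
  have hv1 : v ≠ 1 := by
    intro h
    have := orderOf_dvd_of_pow_eq_one h
    rw [hg] at this
    have h2 := (Nat.pow_dvd_pow_iff_le_right hp.out.one_lt).mp this
    omega
  have hvo : orderOf v = p := orderOf_eq_prime hvp hv1
  have h1 : (g ^ (p ^ e * u)) ^ p ^ (b - e) = v ^ u := by
    rw [hv, ← pow_mul, ← pow_mul]
    congr 1
    rw [show b = e + (b - e) by omega, Nat.add_sub_cancel_left, pow_add]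
    ring
  have hcop : u.Coprime (orderOf v) := by
    rw [hvo]
    exact ((Nat.Prime.coprime_iff_not_dvd hp.out).mpr hu).symm
  obtain ⟨m, hm⟩ := exists_pow_eq_self_of_coprime hcop
  rw [← hm, ← h1]
  exact Subgroup.pow_mem _ (Subgroup.pow_mem _ (Subgroup.mem_zpowers _) _) _

section
variable {H : Type*} [Group H] [Finite H] {p r : ℕ} [hp : Fact p.Prime] [hr : Fact r.Prime]

theorem isPGroup_zpowers {g : H} {b : ℕ} (hg : orderOf g = p ^ b) : IsPGroup p (Subgroup.zpowers g) :=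
  IsPGroup.of_card (n := b) (by rw [Nat.card_zpowers, hg])

theorem pCore_sup_eq_bot (hpr : p ≠ r) {R₂ : Subgroup H} (hR₂ : IsPGroup r R₂) (hne : R₂ ≠ ⊥) {g : H} {b : ℕ}
    (hg : orderOf g = p ^ (b + 1)) (hgR : g ∈ Subgroup.normalizer (R₂ : Set H))
    (hcc : ⁅R₂, Subgroup.zpowers (g ^ p ^ b)⁆ = R₂) :
    pCore p ↥(R₂ ⊔ Subgroup.zpowers g) = ⊥ := by
  classical
  set H₁ := R₂ ⊔ Subgroup.zpowers g with hH₁
  rcases Subgroup.bot_or_exists_ne_one (pCore p ↥H₁) with h | ⟨x₀, hx₀, hx₀1⟩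
  · exact h
  exfalso
  have hAN : Subgroup.zpowers g ≤ Subgroup.normalizer (R₂ : Set H) := Subgroup.zpowers_le.mpr hgR
  set Pi0 := (pCore p ↥H₁).map H₁.subtype with hPi
  have hPip : IsPGroup p Pi0 := (pCore_isPGroup p).map H₁.subtype
  have hnorm : ∀ a ∈ H₁, a ∈ Subgroup.normalizer (Pi0 : Set H) := by
    intro a ha
    apply mem_normalizer_of_conj_mem
    intro n hn
    obtain ⟨n', hn', rfl⟩ := hn
    refine ⟨⟨a, ha⟩ * n' * ⟨a, ha⟩⁻¹, (pCore_normal p ↥H₁).conj_mem _ hn' _, ?_⟩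
    simp
  have hgH : g ∈ H₁ := (le_sup_right : Subgroup.zpowers g ≤ H₁) (Subgroup.mem_zpowers g)
  have hgPi : Subgroup.zpowers g ≤ Subgroup.normalizer (Pi0 : Set H) :=
    Subgroup.zpowers_le.mpr (hnorm g hgH)
  have hPi1 : IsPGroup p (Pi0 ⊔ Subgroup.zpowers g : Subgroup H) :=
    hPip.to_sup_of_normal_left' (isPGroup_zpowers hg) hgPi
  have hdis := IsPGroup.disjoint_of_ne r p hpr.symm R₂ _ hR₂ hPi1
  have hsub : ∀ x ∈ Pi0, x ∈ Subgroup.zpowers g := by
    intro x hx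
    obtain ⟨x', hx', rfl⟩ := hx
    have hxH : ((x' : ↥H₁) : H) ∈ R₂ ⊔ Subgroup.zpowers g := x'.2
    obtain ⟨ρ, hρ, a, ha, hxe⟩ := (mem_sup_iff_of_le_normalizer hAN _).mp hxH
    have h1 : ρ = (H₁.subtype x') * a⁻¹ := by
      simp only [Subgroup.subtype_apply]
      rw [← hxe]; group
    have h2 : ρ ∈ (Pi0 ⊔ Subgroup.zpowers g : Subgroup H) := by
      rw [h1]
      exact Subgroup.mul_mem_sup ⟨x', hx', rfl⟩ (Subgroup.inv_mem _ ha)
    have h3 : ρ = 1 := Subgroup.disjoint_def.mp hdis hρ h2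
    rw [h3, one_mul] at hxe
    simp only [Subgroup.subtype_apply]
    rw [← hxe]; exact ha
  have hx₀Pi0 : ((x₀ : ↥H₁) : H) ∈ Pi0 := ⟨x₀, hx₀, rfl⟩
  have hvPi0 : g ^ p ^ b ∈ Pi0 := by
    have h1 := top_pow_mem_zpowers hg (hsub _ hx₀Pi0) (by
      intro h
      exact hx₀1 (Subtype.ext h))
    exact (Subgroup.zpowers_le.mpr hx₀Pi0) h1
  apply hne
  rw [← hcc, eq_bot_iff, Subgroup.commutator_le]
  intro ρ hρ a ha
  have haPi0 : a ∈ Pi0 := (Subgroup.zpowers_le.mpr hvPi0) ha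
  have haN : a ∈ Subgroup.normalizer (R₂ : Set H) := by
    apply hAN
    exact (Subgroup.zpowers_le.mpr (Subgroup.pow_mem _ (Subgroup.mem_zpowers g) _)) ha
  have hρH : ρ ∈ H₁ := (le_sup_left : R₂ ≤ H₁) hρ
  have h1 : ⁅ρ, a⁆ ∈ R₂ := by
    have : ⁅ρ, a⁆ = ρ * (a * ρ⁻¹ * a⁻¹) := by simp only [commutatorElement_def]; group
    rw [this]
    exact R₂.mul_mem hρ ((Subgroup.mem_normalizer_iff.mp haN _).mp (R₂.inv_mem hρ))
  have h2 : ⁅ρ, a⁆ ∈ Pi0 := by
    rw [commutatorElement_def]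
    exact Pi0.mul_mem ((Subgroup.mem_normalizer_iff.mp (hnorm ρ hρH) _).mp haPi0) (Pi0.inv_mem haPi0)
  have hdis2 := IsPGroup.disjoint_of_ne r p hpr.symm R₂ Pi0 hR₂ hPip
  rw [Subgroup.mem_bot]
  exact Subgroup.disjoint_def.mp hdis2 h1 h2

/-- every power `(ρ a) ^ k` is `ρ' a ^ k`. -/
theorem pow_mul_form {R₂ : Subgroup H} {a : H} (ha : a ∈ Subgroup.normalizer (R₂ : Set H)) {ρ : H}
    (hρ : ρ ∈ R₂) (k : ℕ) : ∃ ρ' ∈ R₂, (ρ * a) ^ k = ρ' * a ^ k := by
  induction k with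
  | zero => exact ⟨1, R₂.one_mem, by simp⟩
  | succ k ih =>
    obtain ⟨ρ', hρ', he⟩ := ih
    have hak : a ^ k ∈ Subgroup.normalizer (R₂ : Set H) := Subgroup.pow_mem _ ha k
    refine ⟨ρ' * (a ^ k * ρ * (a ^ k)⁻¹), R₂.mul_mem hρ' ((Subgroup.mem_normalizer_iff.mp hak _).mp hρ), ?_⟩
    rw [pow_succ, he, pow_succ]
    group

theorem no_exception (hpr : p ≠ r) {R₂ : Subgroup H} (hR₂ : IsPGroup r R₂) {g : H} {b : ℕ}
    (hg : orderOf g = p ^ (b + 1)) (hgR : g ∈ Subgroup.normalizer (R₂ : Set H))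
    (hexc : (p ≠ 2 ∧ r ≠ 2) ∨ IsMulCommutative R₂)
    {n₀ q m : ℕ} (hn₀ : 1 ≤ n₀) (hq : q.Prime) (hm : 1 ≤ m) (heq : p ^ n₀ - 1 = q ^ m)
    (hS : ∀ Q : Sylow q ↥(R₂ ⊔ Subgroup.zpowers g), ¬ IsMulCommutative (Q : Subgroup ↥(R₂ ⊔ Subgroup.zpowers g))) :
    False := by
  classical
  haveI : Fact q.Prime := ⟨hq⟩
  have hAN : Subgroup.zpowers g ≤ Subgroup.normalizer (R₂ : Set H) := Subgroup.zpowers_le.mpr hgR
  have hp1 : 1 < p := hp.out.one_lt
  have hpow : 1 ≤ p ^ n₀ := Nat.one_le_pow _ _ hp.out.pos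
  have hqp : q ≠ p := by
    rintro rfl
    have h1 : q ∣ q ^ n₀ - 1 := by
      rw [heq]; exact dvd_pow_self q (by omega)
    have h2 : q ∣ q ^ n₀ := dvd_pow_self q (by omega)
    have h3 : q ∣ 1 := by
      have := (Nat.dvd_sub h2 h1)
      rwa [Nat.sub_sub_self hpow] at this
    exact hq.one_lt.ne' (Nat.dvd_one.mp h3)
  have key : ∀ x ∈ R₂ ⊔ Subgroup.zpowers g, x ^ p ^ (b + 1) ∈ R₂ := by
    intro x hx
    obtain ⟨ρ, hρ, a, ha, rfl⟩ := (mem_sup_iff_of_le_normalizer hAN _).mp hx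
    obtain ⟨ρ', hρ', he⟩ := pow_mul_form (hAN ha) hρ (p ^ (b + 1))
    rw [he]
    have : a ^ p ^ (b + 1) = 1 := by
      obtain ⟨i, rfl⟩ := Subgroup.mem_zpowers_iff.mp ha
      rw [← zpow_natCast, ← zpow_mul, mul_comm, zpow_mul, zpow_natCast, ← hg, pow_orderOf_eq_one, one_zpow]
    rw [this, mul_one]
    exact hρ'
  set H₁ := R₂ ⊔ Subgroup.zpowers g with hH₁
  obtain ⟨Q⟩ : Nonempty (Sylow q ↥H₁) := inferInstance
  -- orders in `Q`
  have hQel : ∀ x : ↥H₁, x ∈ (Q : Subgroup ↥H₁) → (q ≠ r → x = 1) ∧ (q = r → (x : H) ∈ R₂) := by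
    intro x hx
    obtain ⟨j, hj⟩ := Q.2 ⟨x, hx⟩
    have hj' : (x : H) ^ q ^ j = 1 := by
      have := congrArg (fun y : (Q : Subgroup ↥H₁) => ((y : ↥H₁) : H)) hj
      simpa using this
    have hy := key x x.2
    obtain ⟨l, hl⟩ := hR₂ ⟨_, hy⟩
    have hl' : ((x : H) ^ p ^ (b + 1)) ^ r ^ l = 1 := by
      have := congrArg (fun y : R₂ => (y : H)) hl
      simpa using this
    have ho1 : orderOf (x : H) ∣ q ^ j := orderOf_dvd_of_pow_eq_one hj'
    constructor
    · intro hqr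
      have ho2 : orderOf (x : H) ∣ p ^ (b + 1) * r ^ l := by
        apply orderOf_dvd_of_pow_eq_one
        rw [pow_mul]; exact hl'
      have hcop : (q ^ j).Coprime (p ^ (b + 1) * r ^ l) := by
        apply Nat.Coprime.mul_right
        · exact Nat.Coprime.pow _ _ ((Nat.coprime_primes hq hp.out).mpr hqp)
        · exact Nat.Coprime.pow _ _ ((Nat.coprime_primes hq hr.out).mpr hqr)
      have h1 : orderOf (x : H) = 1 := Nat.eq_one_of_dvd_coprimes hcop ho1 ho2
      exact Subtype.ext (orderOf_eq_one_iff.mp h1)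
    · intro _
      have hcop : (p ^ (b + 1)).Coprime (orderOf (x : H)) := by
        have h2 : (p ^ (b + 1)).Coprime (q ^ j) :=
          Nat.Coprime.pow _ _ ((Nat.coprime_primes hp.out hq).mpr hqp.symm)
        exact Nat.Coprime.coprime_dvd_right ho1 h2
      obtain ⟨e, he⟩ := exists_pow_eq_self_of_coprime hcop
      rw [← he]
      exact R₂.pow_mem hy e
  by_cases hqr : q = r
  · rcases hexc with ⟨hp2, hr2⟩ | hab
    · -- parity
      have h1 : Odd p := hp.out.odd_of_ne_two hp2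
      have h2 : Even (p ^ n₀ - 1) := by
        have h3 : Odd (p ^ n₀) := h1.pow
        obtain ⟨c, hc⟩ := h3
        exact ⟨c, by omega⟩
      rw [heq, hqr] at h2
      have h3 : 2 ∣ r ^ m := h2.two_dvd
      exact hr2 ((Nat.prime_dvd_prime_iff_eq Nat.prime_two hr.out).mp (Nat.prime_two.dvd_of_dvd_pow h3)).symm
    · apply hS Q
      refine ⟨⟨?_⟩⟩
      intro a b
      apply Subtype.ext
      apply Subtype.ext
      have ha := (hQel a.1 a.2).2 hqr
      have hb := (hQel b.1 b.2).2 hqr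
      have := congrArg Subtype.val (hab.is_comm.comm ⟨_, ha⟩ ⟨_, hb⟩)
      simpa using this
  · apply hS Q
    refine ⟨⟨?_⟩⟩
    intro a b
    have ha := (hQel a.1 a.2).1 hqr
    have hb := (hQel b.1 b.2).1 hqr
    apply Subtype.ext
    simp [ha, hb]

end

variable {K : Type*} [Group K] [Finite K] {p r : ℕ} [hp : Fact p.Prime] [hr : Fact r.Prime]

/-- **No move.** -/
theorem no_move (hpr : p ≠ r) [Group.IsSolvable K] (hcore : pPrimeCore p K = ⊥) (b : ℕ)
    (hexp : ∀ x : K, (∃ k, x ^ p ^ k = 1) → x ^ p ^ (b + 1) = 1)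
    (g : K) (hg : ∃ k, g ^ p ^ k = 1) (R : Subgroup K) (hR : IsPGroup r R)
    (hgR : g ∈ Subgroup.normalizer (R : Set K))
    (hexc : (p ≠ 2 ∧ r ≠ 2) ∨ IsMulCommutative R) :
    ∀ x ∈ R, g ^ p ^ b * x = x * g ^ p ^ b := by
  classical
  set W := pCore p K with hW
  haveI hWn : W.Normal := pCore_normal p K
  have hWp : IsPGroup p W := pCore_isPGroup p
  have hsol : IsPSolvable p K := isPSolvable_of_solvable
  obtain ⟨V, _, _, hfinV, ρ, π, hπ, hρ, hact⟩ := exists_layer hsol hcore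
  let q : K →* K ⧸ W := QuotientGroup.mk' W
  have hqs : Function.Surjective q := QuotientGroup.mk'_surjective W
  have hqk : ∀ x, q x = 1 ↔ x ∈ W := fun x => QuotientGroup.eq_one_iff x
  -- the easy direction
  have hgpow : g ^ p ^ b ∈ Subgroup.normalizer (R : Set K) := Subgroup.pow_mem _ hgR _
  have heasy : ∀ x ∈ R, q (g ^ p ^ b) * q x = q x * q (g ^ p ^ b) → g ^ p ^ b * x = x * g ^ p ^ b := by
    intro x hx h
    set v := g ^ p ^ b
    have h1 : v * x * v⁻¹ * x⁻¹ ∈ W := by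
      rw [← hqk, map_mul, map_mul, map_mul, map_inv, map_inv, h]
      group
    have h2 : v * x * v⁻¹ * x⁻¹ ∈ R :=
      R.mul_mem ((Subgroup.mem_normalizer_iff.mp hgpow _).mp hx) (R.inv_mem hx)
    have h3 := Subgroup.disjoint_def.mp (IsPGroup.disjoint_of_ne p r hpr W R hWp hR) h1 h2
    have h4 : v * x * v⁻¹ = x := by
      rw [mul_inv_eq_one] at h3; exact h3
    rw [mul_inv_eq_iff_eq_mul] at h4
    exact h4
  -- the `p`-element property of the top element
  have hg1 : g ^ p ^ (b + 1) = 1 := hexp g hg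
  by_contra hcon
  push Not at hcon
  obtain ⟨x₀, hx₀, hx₀c⟩ := hcon
  have hmove : q (g ^ p ^ b) * q x₀ ≠ q x₀ * q (g ^ p ^ b) := fun h => hx₀c (heasy x₀ hx₀ h)
  set gh := q g with hgh
  have hv : gh ^ p ^ b = q (g ^ p ^ b) := by rw [map_pow]
  have hv1 : gh ^ p ^ b ≠ 1 := by
    intro h
    apply hmove
    rw [← hv, h]; simp
  have hgho : orderOf gh = p ^ (b + 1) := by
    apply orderOf_eq_prime_pow hv1
    rw [hgh, ← map_pow, hg1, map_one]
  -- the gain
  have hgain : (ρ gh - 1) ^ (p ^ (b + 1) - 1) = 0 := by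
    have h1 := gain_lemma ρ π hπ hact g⁻¹ (b + 1) (by
      intro u hu
      apply hexp
      obtain ⟨k, hk⟩ := hg
      have h2 : q ((g⁻¹ * u) ^ p ^ k) = 1 := by
        rw [map_pow, map_mul, (hqk u).mpr hu, mul_one, map_inv, inv_pow, ← map_pow, hk, map_one, inv_one]
      have h3 := (hqk _).mp h2
      obtain ⟨j, hj⟩ := hWp ⟨_, h3⟩
      refine ⟨k + j, ?_⟩
      have h4 : ((g⁻¹ * u) ^ p ^ k) ^ p ^ j = 1 := by
        have := congrArg Subtype.val hj
        simpa using this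
      rw [pow_add, pow_mul, h4])
    rw [inv_inv] at h1
    exact h1
  -- the group `H₁`
  set Rh := R.map q with hRh
  have hRhp : IsPGroup r Rh := hR.map q
  have hghRh : gh ∈ Subgroup.normalizer (Rh : Set (K ⧸ W)) := by
    apply mem_normalizer_of_conj_mem
    rintro _ ⟨x, hx, rfl⟩
    refine ⟨g * x * g⁻¹, (Subgroup.mem_normalizer_iff.mp hgR _).mp hx, ?_⟩
    simp [hgh]
  set vh := gh ^ p ^ b with hvh
  have hvR : vh ∈ Subgroup.normalizer (Rh : Set (K ⧸ W)) := Subgroup.pow_mem _ hghRh _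
  set A := Subgroup.zpowers vh with hA
  have hAn : A ≤ Subgroup.normalizer (Rh : Set (K ⧸ W)) := Subgroup.zpowers_le.mpr hvR
  have hAp : IsPGroup p A := by
    have h1 : orderOf vh = p := by
      apply orderOf_eq_prime _ hv1
      rw [hvh, ← pow_mul, ← pow_succ, ← hgho, pow_orderOf_eq_one]
    exact isPGroup_zpowers (b := 1) (by rw [h1, pow_one])
  have hcop : (Nat.card A).Coprime (Nat.card Rh) := IsPGroup.coprime_card_of_ne p r hpr A Rh hAp hRhp
  have hAsol : Group.IsSolvable A := by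
    have : IsMulCommutative A := inferInstance
    exact Group.isSolvable_of_comm this.is_comm.comm
  set R₂ := ⁅Rh, A⁆ with hR₂
  have hcc : ⁅R₂, A⁆ = R₂ := commutator_commutator_eq hAn hcop (Or.inl hAsol)
  have hR₂le : R₂ ≤ Rh := commutator_le_left_of_le_normalizer hAn
  have hR₂p : IsPGroup r R₂ := hRhp.to_le hR₂le
  have hR₂ne : R₂ ≠ ⊥ := by
    intro h
    apply hmove
    have h1 : ⁅q x₀, vh⁆ ∈ R₂ :=
      Subgroup.commutator_mem_commutator ⟨x₀, hx₀, rfl⟩ (Subgroup.mem_zpowers _)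
    rw [h, Subgroup.mem_bot, commutatorElement_eq_one_iff_mul_comm] at h1
    rw [← hv]
    exact h1.symm
  have hghR₂ : gh ∈ Subgroup.normalizer (R₂ : Set (K ⧸ W)) := by
    apply commutator_mem_normalizer hghRh
    apply mem_normalizer_of_conj_mem
    intro a ha
    have h1 : Commute gh a := by
      obtain ⟨i, rfl⟩ := Subgroup.mem_zpowers_iff.mp ha
      exact ((Commute.refl gh).pow_right _).zpow_right i
    rw [h1.eq, mul_inv_cancel_right]
    exact ha
  set H₁ := R₂ ⊔ Subgroup.zpowers gh with hH₁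
  have hghH : gh ∈ H₁ := (le_sup_right : Subgroup.zpowers gh ≤ H₁) (Subgroup.mem_zpowers gh)
  let ρ₁ : ↥H₁ →* End (ZMod p) V := ρ.comp H₁.subtype
  have hρ₁ : Function.Injective ρ₁ := hρ.comp H₁.subtype_injective
  have hOp : pCore p ↥H₁ = ⊥ := pCore_sup_eq_bot hpr hR₂p hR₂ne hgho hghR₂ hcc
  have hsolH : Group.IsSolvable ↥H₁ := inferInstance
  have hpsolH : IsPSolvable p ↥H₁ := isPSolvable_of_solvable
  have hxo : orderOf (⟨gh, hghH⟩ : ↥H₁) = p ^ (b + 1) := by rw [Subgroup.orderOf_mk, hgho]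
  have hnt : Nontrivial V := by
    by_contra hnt
    rw [not_nontrivial_iff_subsingleton] at hnt
    have : Subsingleton (End (ZMod p) V) := inferInstance
    have h1 : ρ (gh ^ p ^ b) = ρ 1 := Subsingleton.elim _ _
    exact hv1 (hρ h1)
  haveI : Module.Finite (ZMod p) V := Module.Finite.of_finite
  rcases theorem_b_field (p := p) ρ₁ hρ₁ hpsolH hOp ⟨gh, hghH⟩ (b + 1) hxo (p ^ (b + 1) - 1) hgain with h1 | h1
  · have h2 : 0 < p ^ (b + 1) := pow_pos hp.out.pos _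
    omega
  · obtain ⟨n₀, q', m, hn₀, -, hq', hm, heq, hS, -⟩ := h1
    refine no_exception hpr hR₂p hgho hghR₂ ?_ hn₀ hq' hm heq hS
    rcases hexc with h | hab
    · exact Or.inl h
    · right
      refine ⟨⟨?_⟩⟩
      have hRhab : ∀ a ∈ Rh, ∀ b ∈ Rh, a * b = b * a := by
        rintro _ ⟨a, ha, rfl⟩ _ ⟨c, hc, rfl⟩
        have := congrArg Subtype.val (hab.is_comm.comm ⟨a, ha⟩ ⟨c, hc⟩)
        simp only [Subgroup.coe_mul] at this
        rw [← map_mul, ← map_mul, this]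
      intro a c
      apply Subtype.ext
      exact hRhab _ (hR₂le a.2) _ (hR₂le c.2)

end Cfsg.Agent.Lib.TwoGen.NoMove
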