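import Mathlib
import Cfsg.Prelude.Def_Local
import Cfsg.Agent.Lib.TwoGen.NoMove
import Cfsg.Agent.Lib.Coprime.Generation
import Cfsg.Agent.Lib.Solvable.AxB
import Cfsg.Agent.Lib.Transfer.Basic

/-!
# Sections moved by a top element; the rank two step; the signalizer lemma
-/

set_option autoImplicit false
set_option linter.unusedSectionVars false
set_option linter.style.haveILetI false

namespace Cfsg.Agent.Lib.TwoGen.ClaimA

open Cfsg Cfsg.Agent.Lib.HallHigman.Layer Cfsg.Agent.Lib.Solvable.PSeries Cfsg.Agent.Lib.Basic.PCore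
  Cfsg.Agent.Lib.Coprime.Coset Cfsg.Agent.Lib.Coprime.Three Cfsg.Agent.Lib.TwoGen.NoMove
  Cfsg.Agent.Lib.Coprime.Generation
open scoped commutatorElement

variable {K : Type*} [Group K] [Finite K] {p r : ℕ} [hp : Fact p.Prime] [hr : Fact r.Prime]

theorem no_move' (hpr : p ≠ r) [Group.IsSolvable K] (b : ℕ)
    (hexp : ∀ x : K, (∃ k, x ^ p ^ k = 1) → x ^ p ^ (b + 1) = 1)
    (g : K) (hg : ∃ k, g ^ p ^ k = 1) (R : Subgroup K) (hR : IsPGroup r R)
    (hgR : g ∈ Subgroup.normalizer (R : Set K))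
    (hexc : (p ≠ 2 ∧ r ≠ 2) ∨ IsMulCommutative R) :
    ∀ x ∈ R, ⁅g ^ p ^ b, x⁆ ∈ pPrimeCore p K := by
  classical
  set Y := pPrimeCore p K with hY
  let q : K →* K ⧸ Y := QuotientGroup.mk' Y
  have hcop : (Nat.card Y).Coprime p := pPrimeCore_coprime p
  have hexp1 : ∀ x : K ⧸ Y, (∃ k, x ^ p ^ k = 1) → x ^ p ^ (b + 1) = 1 := by
    rintro x ⟨k, hk⟩
    obtain ⟨y, rfl, hy⟩ := exists_pow_lift Y hcop x k hk
    have := hexp y ⟨k, hy⟩
    rw [← QuotientGroup.mk_pow, this]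
    rfl
  have hgq : (∃ k, (q g) ^ p ^ k = 1) := by
    obtain ⟨k, hk⟩ := hg
    exact ⟨k, by rw [← map_pow, hk, map_one]⟩
  have hnorm : q g ∈ Subgroup.normalizer ((R.map q : Subgroup (K ⧸ Y)) : Set (K ⧸ Y)) := by
    apply mem_normalizer_of_conj_mem
    rintro _ ⟨x, hx, rfl⟩
    refine ⟨g * x * g⁻¹, (Subgroup.mem_normalizer_iff.mp hgR _).mp hx, ?_⟩
    simp
  have hexc1 : (p ≠ 2 ∧ r ≠ 2) ∨ IsMulCommutative (R.map q) := by
    rcases hexc with h | hab
    · exact Or.inl h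
    · right
      refine ⟨⟨?_⟩⟩
      rintro ⟨_, a, ha, rfl⟩ ⟨_, c, hc, rfl⟩
      apply Subtype.ext
      have := congrArg Subtype.val (hab.is_comm.comm ⟨a, ha⟩ ⟨c, hc⟩)
      simp only [Subgroup.coe_mul] at this
      simp only [Subgroup.coe_mul]
      rw [← map_mul, ← map_mul, this]
  have hcore : pPrimeCore p (K ⧸ Y) = ⊥ := pPrimeCore_quotient p
  intro x hx
  have h := no_move hpr hcore b hexp1 (q g) hgq (R.map q) (hR.map q) hnorm hexc1 (q x) ⟨x, hx, rfl⟩
  have h1 : q ⁅g ^ p ^ b, x⁆ = 1 := by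
    rw [map_commutatorElement, map_pow, commutatorElement_eq_one_iff_mul_comm]
    exact h
  exact (QuotientGroup.eq_one_iff _).mp h1

/-- **Claim A.** -/
theorem claim_A (hpr : p ≠ r) [Group.IsSolvable K] (b : ℕ)
    (hexp : ∀ x : K, (∃ k, x ^ p ^ k = 1) → x ^ p ^ (b + 1) = 1)
    (t : K) (ht : ∃ k, t ^ p ^ k = 1)
    (hexc : (p ≠ 2 ∧ r ≠ 2) ∨ ∀ R : Subgroup K, IsPGroup r R → IsMulCommutative R) :
    ∀ c ∈ pCore r (K ⧸ pPrimeCore r K),
      ⁅c, QuotientGroup.mk' (pPrimeCore r K) (t ^ p ^ b)⁆ ∈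
        (pPrimeCore p K).map (QuotientGroup.mk' (pPrimeCore r K)) := by
  classical
  set X := pPrimeCore r K with hX
  let π : K →* K ⧸ X := QuotientGroup.mk' X
  have hπ : Function.Surjective π := QuotientGroup.mk'_surjective X
  set Rt := pCore r (K ⧸ X) with hRt
  have hRtn : Rt.Normal := pCore_normal r _
  have hRtp : IsPGroup r Rt := pCore_isPGroup r
  set L := Rt.comap π with hL
  haveI hLn : L.Normal := hRtn.comap π
  let f : ↥L →* ↥Rt := (π.comp L.subtype).codRestrict Rt (fun x => x.2)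
  have hf : Function.Surjective f := by
    rintro ⟨y, hy⟩
    obtain ⟨x, rfl⟩ := hπ y
    exact ⟨⟨x, hy⟩, rfl⟩
  obtain ⟨P⟩ : Nonempty (Sylow r ↥L) := inferInstance
  have hP' : ((P.mapSurjective hf : Sylow r ↥Rt) : Subgroup ↥Rt) = ⊤ := by
    have h1 := (P.mapSurjective hf).is_maximal' (Q := ⊤)
      (by
        intro x
        obtain ⟨n, hn⟩ := hRtp (x : ↥Rt)
        exact ⟨n, Subtype.ext (by simpa using hn)⟩)
      le_top
    exact h1.symm
  have hsurj : ∀ y : ↥Rt, ∃ ρ ∈ (P : Subgroup ↥L), f ρ = y := by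
    intro y
    have h1 : y ∈ ((P.mapSurjective hf : Sylow r ↥Rt) : Subgroup ↥Rt) := by rw [hP']; trivial
    rw [Sylow.coe_mapSurjective] at h1
    obtain ⟨ρ, hρ, he⟩ := h1
    exact ⟨ρ, hρ, he⟩
  set R := (P : Subgroup ↥L).map L.subtype with hR
  have hRp : IsPGroup r R := P.2.map L.subtype
  have hfr := Sylow.normalizer_sup_eq_top P
  have htm : t ∈ Subgroup.normalizer ((R : Subgroup K) : Set K) ⊔ L := by
    rw [hfr]; trivial
  obtain ⟨a, ha, l, hl, hal⟩ := Subgroup.mem_sup_of_normal_right.mp htm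
  obtain ⟨ρ, hρ, hρe⟩ := hsurj (f ⟨l, hl⟩)
  have hρπ : π (ρ : K) = π l := congrArg Subtype.val hρe
  have hρR : (ρ : K) ∈ R := ⟨ρ, hρ, rfl⟩
  have hρN : (ρ : K) ∈ Subgroup.normalizer ((R : Subgroup K) : Set K) :=
    Subgroup.le_normalizer hρR
  set n := a * (ρ : K) with hn
  have hnN : n ∈ Subgroup.normalizer ((R : Subgroup K) : Set K) := Subgroup.mul_mem _ ha hρN
  have hnπ : π n = π t := by
    rw [hn, map_mul, hρπ, ← map_mul, hal]
  obtain ⟨a₀, b₀, hab, hcomm, ha₀, hb₀, ⟨k₀, hk₀⟩, hb₀c⟩ :=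
    Cfsg.Agent.Lib.Transfer.Basic.exists_pPart_decomp (p := p) n
  -- the `p'`-part dies
  have hb1 : π b₀ = 1 := by
    obtain ⟨i, rfl⟩ := Subgroup.mem_zpowers_iff.mp hb₀
    obtain ⟨k, hk⟩ := ht
    have h1 : (π (n ^ i)) ^ p ^ k = 1 := by
      rw [map_zpow, hnπ, ← zpow_natCast, ← zpow_mul, mul_comm, zpow_mul, zpow_natCast, ← map_pow, hk,
        map_one, one_zpow]
    have h2 : orderOf (π (n ^ i)) ∣ p ^ k := orderOf_dvd_of_pow_eq_one h1
    have h3 : orderOf (π (n ^ i)) ∣ orderOf (n ^ i) := orderOf_map_dvd π _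
    have h4 : (p ^ k).Coprime (orderOf (n ^ i)) := Nat.Coprime.pow_left _ hb₀c.symm
    exact orderOf_eq_one_iff.mp (Nat.eq_one_of_dvd_coprimes h4 h2 h3)
  have ha₀π : π a₀ = π t := by
    rw [← hnπ, ← hab, map_mul, hb1, mul_one]
  have ha₀N : a₀ ∈ Subgroup.normalizer ((R : Subgroup K) : Set K) :=
    (Subgroup.zpowers_le.mpr hnN) ha₀
  have ha₀p : ∃ k, a₀ ^ p ^ k = 1 := ⟨k₀, by rw [← hk₀, pow_orderOf_eq_one]⟩
  have hexc1 : (p ≠ 2 ∧ r ≠ 2) ∨ IsMulCommutative R := by
    rcases hexc with h | h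
    · exact Or.inl h
    · exact Or.inr (h R hRp)
  have hmain := no_move' hpr b hexp a₀ ha₀p R hRp ha₀N hexc1
  intro c hc
  obtain ⟨ρ₁, hρ₁, hρ₁e⟩ := hsurj ⟨c, hc⟩
  have hc1 : c = π (ρ₁ : K) := (congrArg Subtype.val hρ₁e).symm
  have hm := hmain (ρ₁ : K) ⟨ρ₁, hρ₁, rfl⟩
  refine ⟨⁅(ρ₁ : K), a₀ ^ p ^ b⁆, ?_, ?_⟩
  · have : ⁅(ρ₁ : K), a₀ ^ p ^ b⁆ = ⁅a₀ ^ p ^ b, (ρ₁ : K)⁆⁻¹ := (commutatorElement_inv _ _).symm
    rw [this]
    exact Subgroup.inv_mem _ hm
  · change π ⁅(ρ₁ : K), a₀ ^ p ^ b⁆ = ⁅c, π (t ^ p ^ b)⁆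
    rw [map_commutatorElement, map_pow, ha₀π, map_pow, hc1]

/-- **The rank two step.** -/
theorem core_step (hpr : p ≠ r) [Group.IsSolvable K] {v ζ : K} (hv : orderOf v = p) (hζ : orderOf ζ = p)
    (hc : v * ζ = ζ * v) (hζv : ζ ∉ Subgroup.zpowers v)
    (hA : ∀ c ∈ pCore r (K ⧸ pPrimeCore r K),
      ⁅c, QuotientGroup.mk' (pPrimeCore r K) v⁆ ∈
        (pPrimeCore p K).map (QuotientGroup.mk' (pPrimeCore r K)))
    (hB : ∀ y ∈ Subgroup.closure ({v, ζ} : Set K), y ∉ Subgroup.zpowers v →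
      ∀ c : K, c * y = y * c → (orderOf ⁅c, v⁆).Coprime r) :
    v ∈ pPrimeCore r K := by
  classical
  set X := pPrimeCore r K with hX
  let π : K →* K ⧸ X := QuotientGroup.mk' X
  have hπ : Function.Surjective π := QuotientGroup.mk'_surjective X
  set Rt := pCore r (K ⧸ X) with hRt
  have hRtn : Rt.Normal := pCore_normal r _
  have hRtp : IsPGroup r Rt := pCore_isPGroup r
  have hC : Subgroup.centralizer (Rt : Set (K ⧸ X)) ≤ Rt :=
    centralizer_pCore_le isPSolvable_of_solvable (pPrimeCore_quotient r)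
  set Y₀ := pPrimeCore p K with hY₀
  have hY₀n : Y₀.Normal := pPrimeCore_normal p K
  have hY₀c : (Nat.card Y₀).Coprime p := pPrimeCore_coprime p
  set P₀ := Y₀ ⊓ Rt.comap π with hP₀
  have hP₀n : P₀.Normal := by
    haveI := hY₀n
    haveI := hRtn.comap π
    rw [hP₀]
    infer_instance
  set A := Subgroup.closure ({v, ζ} : Set K) with hA'
  have hAab : IsMulCommutative A := by
    apply Subgroup.isMulCommutative_closure
    intro x hx y hy
    simp only [Set.mem_insert_iff, Set.mem_singleton_iff] at hx hy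
    rcases hx with rfl | rfl <;> rcases hy with rfl | rfl
    · rfl
    · exact hc
    · exact hc.symm
    · rfl
  have hAeq : A = Subgroup.zpowers v ⊔ Subgroup.zpowers ζ := by
    rw [hA', Subgroup.zpowers_eq_closure, Subgroup.zpowers_eq_closure, ← Subgroup.closure_union]
    rfl
  have hAp : IsPGroup p A := by
    rw [hAeq]
    apply (isPGroup_zpowers (b := 1) (by rw [hv, pow_one])).to_sup_of_normal_left'
      (isPGroup_zpowers (b := 1) (by rw [hζ, pow_one]))
    rw [Subgroup.zpowers_le]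
    apply mem_normalizer_of_conj_mem
    intro a ha
    obtain ⟨i, rfl⟩ := Subgroup.mem_zpowers_iff.mp ha
    have h1 : Commute ζ v := hc.symm
    rw [(h1.zpow_right i).eq, mul_inv_cancel_right]
    exact ha
  have hAn : A ≤ Subgroup.normalizer (P₀ : Set K) := by
    intro a _
    apply mem_normalizer_of_conj_mem
    intro n hn
    exact hP₀n.conj_mem n hn a
  have hcop : (Nat.card A).Coprime (Nat.card P₀) := by
    obtain ⟨n, hn⟩ := IsPGroup.iff_card.mp hAp
    rw [hn]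
    apply Nat.Coprime.pow_left
    apply Nat.Coprime.symm
    exact Nat.Coprime.coprime_dvd_left (Subgroup.card_dvd_of_le inf_le_left) hY₀c
  -- `v` fixes `π P₀`
  have hgen := le_iSup_cocyclic A P₀ hAab hAn hcop
  have hT : P₀ ≤ (Subgroup.centralizer ({π v} : Set (K ⧸ X))).comap π := by
    refine hgen.trans (iSup₂_le ?_)
    rintro B ⟨hBA, a, haA, hBa⟩ c ⟨hcP, hcB⟩
    -- `B ≠ ⊥`
    have hBne : B ≠ ⊥ := by
      intro hbot
      rw [hbot, bot_sup_eq] at hBa
      have hvm : v ∈ Subgroup.zpowers a := by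
        rw [hBa]; exact Subgroup.subset_closure (by simp)
      have hζm : ζ ∈ Subgroup.zpowers a := by
        rw [hBa]; exact Subgroup.subset_closure (by simp)
      obtain ⟨n, hn⟩ := hAp ⟨a, haA⟩
      have ha1 : a ≠ 1 := by
        rintro rfl
        have : v = 1 := by simpa using hvm
        rw [this, orderOf_one] at hv
        exact hp.out.one_lt.ne hv
      have ha0 : a ^ p ^ n = 1 := by simpa using congrArg Subtype.val hn
      obtain ⟨n', hn'⟩ : ∃ n', orderOf a = p ^ (n' + 1) := by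
        obtain ⟨i, hi, hi2⟩ := (Nat.dvd_prime_pow hp.out).mp (orderOf_dvd_of_pow_eq_one ha0)
        have hi0 : i ≠ 0 := by
          rintro rfl
          rw [pow_zero, orderOf_eq_one_iff] at hi2
          exact ha1 hi2
        exact ⟨i - 1, by rw [hi2]; congr 1; omega⟩
      have hv1 : v ≠ 1 := by
        rintro rfl
        rw [orderOf_one] at hv
        exact hp.out.one_lt.ne hv
      have hζ1 : ζ ≠ 1 := by
        rintro rfl
        rw [orderOf_one] at hζ
        exact hp.out.one_lt.ne hζ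
      have h1 := top_pow_mem_zpowers hn' hvm hv1
      have h2 := top_pow_mem_zpowers hn' hζm hζ1
      set w := a ^ p ^ n' with hw
      have hw1 : w ≠ 1 := by
        intro h
        have := orderOf_dvd_of_pow_eq_one h
        rw [hn'] at this
        have h3 := (Nat.pow_dvd_pow_iff_le_right hp.out.one_lt).mp this
        omega
      have h3 := top_pow_mem_zpowers (b := 0) (g := ζ) (x := w) (by rw [hζ, zero_add, pow_one]) h2 hw1
      rw [pow_zero, pow_one] at h3
      apply hζv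
      exact (Subgroup.zpowers_le.mpr h1) h3
    obtain ⟨y, hyB, hy1⟩ := (Subgroup.bot_or_exists_ne_one B).resolve_left hBne
    have hcy : c * y = y * c := by
      exact (Subgroup.mem_centralizer_iff.mp hcB y hyB).symm
    rw [Subgroup.mem_comap, Subgroup.mem_centralizer_iff]
    rintro _ rfl
    by_cases hyv : y ∈ Subgroup.zpowers v
    · have h1 := top_pow_mem_zpowers (b := 0) (g := v) (x := y) (by rw [hv, zero_add, pow_one]) hyv hy1
      rw [pow_zero, pow_one] at h1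
      obtain ⟨i, rfl⟩ := Subgroup.mem_zpowers_iff.mp h1
      have h2 : Commute c y := hcy
      have h3 : c * y ^ i = y ^ i * c := (h2.zpow_right i).eq
      rw [← map_mul, ← map_mul, h3]
    · have h1 := hB y (hBA hyB) hyv c hcy
      have hcm : π c ∈ Rt := hcP.2
      have h2 : ⁅π c, π v⁆ ∈ Rt := by
        have : ⁅π c, π v⁆ = π c * (π v * (π c)⁻¹ * (π v)⁻¹) := by
          simp only [commutatorElement_def]; group
        rw [this]
        exact Rt.mul_mem hcm (hRtn.conj_mem _ (Rt.inv_mem hcm) _)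
      obtain ⟨m, hm⟩ := hRtp ⟨_, h2⟩
      have hm' : ⁅π c, π v⁆ ^ r ^ m = 1 := by simpa using congrArg Subtype.val hm
      have h3 : orderOf ⁅π c, π v⁆ ∣ r ^ m := orderOf_dvd_of_pow_eq_one hm'
      have h4 : orderOf ⁅π c, π v⁆ ∣ orderOf ⁅c, v⁆ := by
        rw [← map_commutatorElement]
        exact orderOf_map_dvd π _
      have h5 : (r ^ m).Coprime (orderOf ⁅c, v⁆) := Nat.Coprime.pow_left _ h1.symm
      have h6 := orderOf_eq_one_iff.mp (Nat.eq_one_of_dvd_coprimes h5 h3 h4)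
      rw [commutatorElement_eq_one_iff_mul_comm] at h6
      exact h6.symm
  have hvo : (π v) ^ p = 1 := by
    rw [← map_pow, ← hv, pow_orderOf_eq_one, map_one]
  -- `π v` centralises `Rt`
  have hcomm : ∀ c ∈ Rt, c * π v = π v * c := by
    intro c hc'
    have hn := hA c hc'
    have hnR : ⁅c, π v⁆ ∈ Rt := by
      have : ⁅c, π v⁆ = c * (π v * c⁻¹ * (π v)⁻¹) := by
        simp only [commutatorElement_def]; group
      rw [this]
      exact Rt.mul_mem hc' (hRtn.conj_mem _ (Rt.inv_mem hc') _)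
    obtain ⟨c₀, hc₀Y, hc₀e⟩ := hn
    have hc₀e' : π c₀ = ⁅c, π v⁆ := hc₀e
    have hc₀P : c₀ ∈ P₀ := ⟨hc₀Y, by
      change π c₀ ∈ Rt
      rw [hc₀e']
      exact hnR⟩
    have h1 := Subgroup.mem_comap.mp (hT hc₀P)
    rw [Subgroup.mem_centralizer_iff] at h1
    have h2 := h1 (π v) rfl
    rw [hc₀e'] at h2
    set n := ⁅c, π v⁆ with hn'
    have h3 : c * π v * c⁻¹ = n * π v := by
      rw [hn', commutatorElement_def]; group
    have h4 : Commute n (π v) := h2.symm
    have h5 : n ^ p = 1 := by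
      have h6 : (c * π v * c⁻¹) ^ p = (n * π v) ^ p := by rw [h3]
      rw [conj_pow, hvo, h4.mul_pow, hvo, mul_one, mul_one, mul_inv_cancel] at h6
      exact h6.symm
    obtain ⟨m, hm⟩ := hRtp ⟨_, hnR⟩
    have hm' : n ^ r ^ m = 1 := by simpa using congrArg Subtype.val hm
    have h7 : orderOf n ∣ p := orderOf_dvd_of_pow_eq_one h5
    have h8 : orderOf n ∣ r ^ m := orderOf_dvd_of_pow_eq_one hm'
    have h9 : p.Coprime (r ^ m) := Nat.Coprime.pow_right _ ((Nat.coprime_primes hp.out hr.out).mpr hpr)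
    have h10 : n = 1 := orderOf_eq_one_iff.mp (Nat.eq_one_of_dvd_coprimes h9 h7 h8)
    rw [hn', commutatorElement_eq_one_iff_mul_comm] at h10
    exact h10
  have hvC : π v ∈ Rt := by
    apply hC
    rw [Subgroup.mem_centralizer_iff]
    intro c hc'
    exact hcomm c hc'
  obtain ⟨m, hm⟩ := hRtp ⟨_, hvC⟩
  have hm' : (π v) ^ r ^ m = 1 := by simpa using congrArg Subtype.val hm
  have h7 : orderOf (π v) ∣ p := orderOf_dvd_of_pow_eq_one hvo
  have h8 : orderOf (π v) ∣ r ^ m := orderOf_dvd_of_pow_eq_one hm'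
  have h9 : p.Coprime (r ^ m) := Nat.Coprime.pow_right _ ((Nat.coprime_primes hp.out hr.out).mpr hpr)
  have h10 : π v = 1 := orderOf_eq_one_iff.mp (Nat.eq_one_of_dvd_coprimes h9 h7 h8)
  exact (QuotientGroup.eq_one_iff v).mp h10

/-- **The signalizer lemma**: `O_{r'}(C_K(z)) ≤ O_{r'}(K)` for an `r`-element `z` of a solvable group. -/
theorem le_pPrimeCore_of_centralizer [Group.IsSolvable K] (z : K) (hz : ∃ k, z ^ r ^ k = 1) (U : Subgroup K)
    (hU : (Nat.card U).Coprime r) (hUz : ∀ u ∈ U, u * z = z * u)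
    (hUn : ∀ g : K, g * z = z * g → ∀ u ∈ U, g * u * g⁻¹ ∈ U) : U ≤ pPrimeCore r K := by
  classical
  set X := pPrimeCore r K with hX
  let π : K →* K ⧸ X := QuotientGroup.mk' X
  have hπ : Function.Surjective π := QuotientGroup.mk'_surjective X
  set Rt := pCore r (K ⧸ X) with hRt
  have hRtn : Rt.Normal := pCore_normal r _
  have hRtp : IsPGroup r Rt := pCore_isPGroup r
  have hC : Subgroup.centralizer (Rt : Set (K ⧸ X)) ≤ Rt :=
    centralizer_pCore_le isPSolvable_of_solvable (pPrimeCore_quotient r)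
  have hXc : (Nat.card X).Coprime r := pPrimeCore_coprime r
  have hXn : X.Normal := pPrimeCore_normal r K
  set Uh := U.map π with hUh
  have hUhc : (Nat.card Uh).Coprime r :=
    Nat.Coprime.coprime_dvd_left (Subgroup.card_map_dvd U π) hU
  obtain ⟨k, hk⟩ := hz
  have hzh : (π z) ^ r ^ k = 1 := by rw [← map_pow, hk, map_one]
  obtain ⟨i, -, hi⟩ := (Nat.dvd_prime_pow hr.out).mp (orderOf_dvd_of_pow_eq_one hzh)
  set B := Subgroup.zpowers (π z) with hB
  have hBp : IsPGroup r B := isPGroup_zpowers hi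
  have hAB : Uh ≤ Subgroup.centralizer (B : Set (K ⧸ X)) := by
    rintro _ ⟨u, hu, rfl⟩
    rw [Subgroup.mem_centralizer_iff]
    intro b hb
    obtain ⟨j, rfl⟩ := Subgroup.mem_zpowers_iff.mp hb
    have h1 : Commute (π u) (π z) := by
      change π u * π z = π z * π u
      rw [← map_mul, ← map_mul, hUz u hu]
    exact (h1.zpow_right j).eq.symm
  have hnorm : ∀ a : K ⧸ X, a ∈ Subgroup.normalizer (Rt : Set (K ⧸ X)) := by
    intro a
    apply mem_normalizer_of_conj_mem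
    intro n hn
    exact hRtn.conj_mem n hn a
  have hdis : ∀ a ∈ Uh, a ∈ Rt → a = 1 := by
    intro a ha ha2
    obtain ⟨m, hm⟩ := hRtp ⟨_, ha2⟩
    have hm' : a ^ r ^ m = 1 := by simpa using congrArg Subtype.val hm
    have h1 : orderOf a ∣ r ^ m := orderOf_dvd_of_pow_eq_one hm'
    have h2 : orderOf a ∣ Nat.card Uh := by
      have := orderOf_dvd_natCard (⟨a, ha⟩ : Uh)
      rwa [Subgroup.orderOf_mk] at this
    have h3 : (Nat.card Uh).Coprime (r ^ m) := Nat.Coprime.pow_right _ hUhc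
    exact orderOf_eq_one_iff.mp (Nat.eq_one_of_dvd_coprimes h3 h2 h1)
  have hkey : Rt ⊓ Subgroup.centralizer (B : Set (K ⧸ X)) ≤ Subgroup.centralizer (Uh : Set (K ⧸ X)) := by
    rintro w ⟨hwR, hwB⟩
    obtain ⟨w₀, rfl⟩ := hπ w
    have hw₀z : π w₀ * π z = π z * π w₀ :=
      (Subgroup.mem_centralizer_iff.mp hwB (π z) (Subgroup.mem_zpowers _)).symm
    -- the fixed point in the coset
    set Z := Subgroup.zpowers z with hZ
    have hZo : ∃ e, orderOf z = r ^ e := by
      obtain ⟨e, -, he⟩ := (Nat.dvd_prime_pow hr.out).mp (orderOf_dvd_of_pow_eq_one hk)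
      exact ⟨e, he⟩
    obtain ⟨e, he⟩ := hZo
    have hZp : IsPGroup r Z := isPGroup_zpowers he
    have hZX : Z ≤ Subgroup.normalizer (X : Set K) := by
      intro a _
      apply mem_normalizer_of_conj_mem
      intro n hn
      exact hXn.conj_mem n hn a
    have hcop : (Nat.card Z).Coprime (Nat.card X) := by
      obtain ⟨n, hn⟩ := IsPGroup.iff_card.mp hZp
      rw [hn]
      exact Nat.Coprime.pow_left _ hXc.symm
    have hsolZ : Group.IsSolvable Z := by
      have : IsMulCommutative Z := inferInstance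
      exact Group.isSolvable_of_comm this.is_comm.comm
    set z' := w₀ * z * w₀⁻¹ with hz'
    have hz'm : z' ∈ X ⊔ Z := by
      have h1 : z' * z⁻¹ ∈ X := by
        rw [← QuotientGroup.eq_one_iff]
        change π (z' * z⁻¹) = 1
        rw [hz', map_mul, map_mul, map_mul, map_inv, map_inv, hw₀z]
        group
      have h2 : z' = (z' * z⁻¹) * z := by group
      rw [h2]
      exact Subgroup.mul_mem_sup h1 (Subgroup.mem_zpowers z)
    have hcard : Nat.card (Subgroup.zpowers z') = Nat.card Z := by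
      rw [Nat.card_zpowers, Nat.card_zpowers, hz', ← MulAut.conj_apply]
      exact MulEquiv.orderOf_eq _ _
    obtain ⟨n, hnX, hne⟩ := exists_conj_eq_of_card_eq hZX hcop (Or.inl hsolZ)
      (Subgroup.zpowers_le.mpr hz'm) hcard
    -- `n⁻¹ w₀` commutes with `z`
    set w₁ := n⁻¹ * w₀ with hw₁
    have hπw₁ : π w₁ = π w₀ := by
      have h1 : π n = 1 := (QuotientGroup.eq_one_iff n).mpr hnX
      rw [hw₁, map_mul, map_inv, h1, inv_one, one_mul]
    have hconj : w₁ * z * w₁⁻¹ ∈ Z := by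
      have h1 : z' ∈ Z.map (MulAut.conj n).toMonoidHom := by
        rw [hne]; exact Subgroup.mem_zpowers z'
      obtain ⟨a, ha, hae⟩ := h1
      have h2 : a = w₁ * z * w₁⁻¹ := by
        have h3 : n * a * n⁻¹ = w₀ * z * w₀⁻¹ := by simpa using hae
        rw [hw₁]
        calc a = n⁻¹ * (n * a * n⁻¹) * n := by group
          _ = n⁻¹ * (w₀ * z * w₀⁻¹) * n := by rw [h3]
          _ = n⁻¹ * w₀ * z * (n⁻¹ * w₀)⁻¹ := by group
      rw [← h2]; exact ha
    have hcz : w₁ * z * w₁⁻¹ * z⁻¹ = 1 := by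
      have h1 : w₁ * z * w₁⁻¹ * z⁻¹ ∈ Z := Z.mul_mem hconj (Z.inv_mem (Subgroup.mem_zpowers z))
      have h2 : w₁ * z * w₁⁻¹ * z⁻¹ ∈ X := by
        rw [← QuotientGroup.eq_one_iff]
        change π (w₁ * z * w₁⁻¹ * z⁻¹) = 1
        rw [map_mul, map_mul, map_mul, map_inv, map_inv, hπw₁, hw₀z]
        group
      exact Subgroup.disjoint_def.mp (inf_eq_bot_of_coprime hcop |> disjoint_iff.mpr) h1 h2
    have hw₁z : w₁ * z = z * w₁ := by
      rw [mul_inv_eq_one, mul_inv_eq_iff_eq_mul] at hcz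
      exact hcz
    rw [Subgroup.mem_centralizer_iff]
    rintro _ ⟨u, hu, rfl⟩
    -- the commutator lies in `Uh` and in `Rt`
    have h1 : w₁ * u * w₁⁻¹ * u⁻¹ ∈ U := U.mul_mem (hUn w₁ hw₁z u hu) (U.inv_mem hu)
    have h2 : π (w₁ * u * w₁⁻¹ * u⁻¹) ∈ Uh := ⟨_, h1, rfl⟩
    have hwR' : π w₁ ∈ Rt := by rw [hπw₁]; exact hwR
    have h3 : π (w₁ * u * w₁⁻¹ * u⁻¹) ∈ Rt := by
      have : π (w₁ * u * w₁⁻¹ * u⁻¹) = π w₁ * (π u * (π w₁)⁻¹ * (π u)⁻¹) := by
        simp only [map_mul, map_inv]; group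
      rw [this]
      exact Rt.mul_mem hwR' (hRtn.conj_mem _ (Rt.inv_mem hwR') _)
    have h4 := hdis _ h2 h3
    simp only [map_mul, map_inv] at h4
    rw [mul_inv_eq_one, mul_inv_eq_iff_eq_mul, hπw₁] at h4
    exact h4.symm
  have hmain := Cfsg.Agent.Lib.Solvable.AxB.ab_lemma (p := r) hRtp hBp hUhc hAB
    (fun a _ => hnorm a) (fun a _ => hnorm a) hkey
  intro u hu
  have h1 : π u ∈ Rt := by
    apply hC
    rw [Subgroup.mem_centralizer_iff]
    intro c hc
    exact (Subgroup.mem_centralizer_iff.mp (hmain hc) (π u) ⟨u, hu, rfl⟩).symm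
  have h2 := hdis _ ⟨u, hu, rfl⟩ h1
  exact (QuotientGroup.eq_one_iff u).mp h2

end Cfsg.Agent.Lib.TwoGen.ClaimA
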