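import Mathlib
import Cfsg.Prelude.Def_Local
import Cfsg.Agent.Lib.TwoGen.ClaimA

/-!
# Auxiliary lemmas: `O_{r'}` and products, central quotients, top elements, and the reduction to `𝒜(v)`
-/

set_option autoImplicit false
set_option linter.unusedSectionVars false
set_option linter.style.haveILetI false

namespace Cfsg.Agent.Lib.TwoGen.Tools

open Cfsg Cfsg.Agent.Lib.HallHigman.Layer Cfsg.Agent.Lib.Solvable.PSeries Cfsg.Agent.Lib.Basic.PCore
  Cfsg.Agent.Lib.Coprime.Coset Cfsg.Agent.Lib.Coprime.Three Cfsg.Agent.Lib.TwoGen.NoMove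
  Cfsg.Agent.Lib.TwoGen.ClaimA
open scoped commutatorElement

section
variable {K : Type*} [Group K] [Finite K] {r : ℕ} [hr : Fact r.Prime]

theorem orderOf_coprime_of_mem_core {x : K} (hx : x ∈ pPrimeCore r K) : (orderOf x).Coprime r := by
  have h1 : orderOf x ∣ Nat.card (pPrimeCore r K) := by
    have := orderOf_dvd_natCard (⟨x, hx⟩ : pPrimeCore r K)
    rwa [Subgroup.orderOf_mk] at this
  exact Nat.Coprime.coprime_dvd_left h1 (pPrimeCore_coprime r)

theorem orderOf_mul_coprime {x g : K} (hx : x ∈ pPrimeCore r K) (hg : (orderOf g).Coprime r) :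
    (orderOf (x * g)).Coprime r := by
  classical
  set O := pPrimeCore r K with hO
  haveI hOn : O.Normal := pPrimeCore_normal r K
  have h1 : ((x * g : K) : K ⧸ O) ^ orderOf g = 1 := by
    rw [QuotientGroup.mk_mul, (QuotientGroup.eq_one_iff x).mpr hx, one_mul, ← QuotientGroup.mk_pow,
      pow_orderOf_eq_one]
    rfl
  have h2 : (x * g) ^ orderOf g ∈ O := by
    rw [← QuotientGroup.eq_one_iff, QuotientGroup.mk_pow]
    exact h1
  have h3 : ((x * g) ^ orderOf g) ^ Nat.card O = 1 := by
    have h0 := pow_card_eq_one' (x := (⟨_, h2⟩ : O))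
    have h00 := congrArg Subtype.val h0
    rwa [Subgroup.coe_pow, Subgroup.coe_one] at h00
  have h4 : orderOf (x * g) ∣ orderOf g * Nat.card O := by
    apply orderOf_dvd_of_pow_eq_one
    rw [pow_mul]; exact h3
  exact Nat.Coprime.coprime_dvd_left h4 (Nat.Coprime.mul_left hg (pPrimeCore_coprime r))

theorem mem_core_of_conj {x g : K} (hx : x ∈ pPrimeCore r K) : g * x * g⁻¹ ∈ pPrimeCore r K :=
  (pPrimeCore_normal r K).conj_mem x hx g

end

section
variable {K : Type*} [Group K] [Finite K] {p r : ℕ} [hp : Fact p.Prime] [hr : Fact r.Prime]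

/-- A top element lies in `O_{r'}` if `O_{p'}` is trivial. -/
theorem top_mem_core (hpr : p ≠ r) [Group.IsSolvable K] (hcore : pPrimeCore p K = ⊥) (b : ℕ)
    (hexp : ∀ x : K, (∃ k, x ^ p ^ k = 1) → x ^ p ^ (b + 1) = 1)
    (t : K) (ht : ∃ k, t ^ p ^ k = 1)
    (hexc : (p ≠ 2 ∧ r ≠ 2) ∨ ∀ R : Subgroup K, IsPGroup r R → IsMulCommutative R) :
    t ^ p ^ b ∈ pPrimeCore r K := by
  classical
  have hA := claim_A hpr b hexp t ht hexc
  rw [hcore, Subgroup.map_bot] at hA
  set X := pPrimeCore r K with hX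
  let π : K →* K ⧸ X := QuotientGroup.mk' X
  set Rt := pCore r (K ⧸ X) with hRt
  have hRtp : IsPGroup r Rt := pCore_isPGroup r
  have hC : Subgroup.centralizer (Rt : Set (K ⧸ X)) ≤ Rt :=
    centralizer_pCore_le isPSolvable_of_solvable (pPrimeCore_quotient r)
  have h1 : π (t ^ p ^ b) ∈ Rt := by
    apply hC
    rw [Subgroup.mem_centralizer_iff]
    intro c hc
    have := hA c hc
    rw [Subgroup.mem_bot, commutatorElement_eq_one_iff_mul_comm] at this
    exact this
  obtain ⟨m, hm⟩ := hRtp ⟨_, h1⟩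
  have hm' : (π (t ^ p ^ b)) ^ r ^ m = 1 := by simpa using congrArg Subtype.val hm
  have h2 : (π (t ^ p ^ b)) ^ p = 1 := by
    rw [← map_pow, ← pow_mul, ← pow_succ, hexp t ht, map_one]
  have h3 : orderOf (π (t ^ p ^ b)) ∣ p := orderOf_dvd_of_pow_eq_one h2
  have h4 : orderOf (π (t ^ p ^ b)) ∣ r ^ m := orderOf_dvd_of_pow_eq_one hm'
  have h5 : p.Coprime (r ^ m) := Nat.Coprime.pow_right _ ((Nat.coprime_primes hp.out hr.out).mpr hpr)
  have h6 : π (t ^ p ^ b) = 1 := orderOf_eq_one_iff.mp (Nat.eq_one_of_dvd_coprimes h5 h3 h4)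
  exact (QuotientGroup.eq_one_iff _).mp h6

/-- Factoring out a central `p`-subgroup keeps `O_{p'} = 1`. -/
theorem core_quot_central [Group.IsSolvable K] (hcore : pPrimeCore p K = ⊥) (Z : Subgroup K) [hZn : Z.Normal]
    (hZp : IsPGroup p Z) (hZc : ∀ z ∈ Z, ∀ x : K, z * x = x * z) : pPrimeCore p (K ⧸ Z) = ⊥ := by
  classical
  let π : K →* K ⧸ Z := QuotientGroup.mk' Z
  have hπ : Function.Surjective π := QuotientGroup.mk'_surjective Z
  set W := pCore p K with hW
  have hWn : W.Normal := pCore_normal p K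
  have hWp : IsPGroup p W := pCore_isPGroup p
  have hC : Subgroup.centralizer (W : Set K) ≤ W := centralizer_pCore_le isPSolvable_of_solvable hcore
  set O := pPrimeCore p (K ⧸ Z) with hO
  have hOn : O.Normal := pPrimeCore_normal p _
  have hOc : (Nat.card O).Coprime p := pPrimeCore_coprime p
  rw [eq_bot_iff]
  intro xb hxb
  rw [Subgroup.mem_bot]
  obtain ⟨x₀, rfl⟩ := hπ xb
  obtain ⟨a, b, hab, hcomm, ha, hb, ⟨k, hk⟩, hbc⟩ :=
    Cfsg.Agent.Lib.Transfer.Basic.exists_pPart_decomp (p := p) x₀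
  have hoc : ∀ y ∈ O, (orderOf y).Coprime p := fun y hy => orderOf_coprime_of_mem_core hy
  have ha1 : π a = 1 := by
    obtain ⟨i, rfl⟩ := Subgroup.mem_zpowers_iff.mp ha
    have h1 : π (x₀ ^ i) ∈ O := by rw [map_zpow]; exact Subgroup.zpow_mem _ hxb _
    have h2 := hoc _ h1
    have h3 : orderOf (π (x₀ ^ i)) ∣ p ^ k := by
      rw [← hk]; exact orderOf_map_dvd π _
    have h4 : (orderOf (π (x₀ ^ i))).Coprime (p ^ k) := Nat.Coprime.pow_right _ h2
    exact orderOf_eq_one_iff.mp (Nat.eq_one_of_dvd_coprimes h4 dvd_rfl h3)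
  have hbπ : π b = π x₀ := by
    rw [← hab, map_mul, ha1, one_mul]
  rw [← hbπ]
  -- `b` centralises `W`
  have hbm : π b ∈ O := by rw [hbπ]; exact hxb
  have hcent : b ∈ Subgroup.centralizer (W : Set K) := by
    rw [Subgroup.mem_centralizer_iff]
    intro w hw
    set n := b * w * b⁻¹ * w⁻¹ with hn
    have hnO : π n ∈ O := by
      have : π n = π b * (π w * (π b)⁻¹ * (π w)⁻¹) := by
        simp only [hn, map_mul, map_inv]; group
      rw [this]
      exact O.mul_mem hbm (hOn.conj_mem _ (O.inv_mem hbm) _)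
    have hnW : n ∈ W := by
      have : n = (b * w * b⁻¹) * w⁻¹ := rfl
      rw [this]
      exact W.mul_mem (hWn.conj_mem _ hw _) (W.inv_mem hw)
    obtain ⟨m, hm⟩ := hWp ⟨_, hnW⟩
    have hm' : n ^ p ^ m = 1 := by simpa using congrArg Subtype.val hm
    have h1 : π n = 1 := by
      have h3 : orderOf (π n) ∣ p ^ m := by
        apply orderOf_dvd_of_pow_eq_one
        rw [← map_pow, hm', map_one]
      have h4 : (orderOf (π n)).Coprime (p ^ m) := Nat.Coprime.pow_right _ (hoc _ hnO)
      exact orderOf_eq_one_iff.mp (Nat.eq_one_of_dvd_coprimes h4 dvd_rfl h3)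
    have hnZ : n ∈ Z := (QuotientGroup.eq_one_iff n).mp h1
    have hcn : ∀ y : K, n * y = y * n := hZc n hnZ
    -- `b ^ j w b ^ -j = n ^ j w`
    have hj : ∀ j : ℕ, b ^ j * w * (b ^ j)⁻¹ = n ^ j * w := by
      intro j
      induction j with
      | zero => simp
      | succ j ih =>
        have h5 : b * w * b⁻¹ = n * w := by rw [hn]; group
        calc b ^ (j + 1) * w * (b ^ (j + 1))⁻¹ = b * (b ^ j * w * (b ^ j)⁻¹) * b⁻¹ := by
              rw [pow_succ']; group
          _ = b * (n ^ j * w) * b⁻¹ := by rw [ih]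
          _ = n ^ j * (b * w * b⁻¹) := by
              have h6 : b * n ^ j = n ^ j * b := by
                have h7 : Commute n b := hcn b
                exact (h7.pow_left j).eq.symm
              calc b * (n ^ j * w) * b⁻¹ = (b * n ^ j) * w * b⁻¹ := by group
                _ = n ^ j * b * w * b⁻¹ := by rw [h6]
                _ = n ^ j * (b * w * b⁻¹) := by group
          _ = n ^ (j + 1) * w := by rw [h5, pow_succ]; group
    have h8 := hj (orderOf b)
    rw [pow_orderOf_eq_one, one_mul, inv_one, mul_one] at h8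
    have h9 : n ^ orderOf b = 1 := by
      exact (mul_eq_right.mp h8.symm)
    have h10 : n = 1 := by
      have h11 : orderOf n ∣ orderOf b := orderOf_dvd_of_pow_eq_one h9
      have h12 : orderOf n ∣ p ^ m := orderOf_dvd_of_pow_eq_one hm'
      have h13 : (orderOf b).Coprime (p ^ m) := Nat.Coprime.pow_right _ hbc
      exact orderOf_eq_one_iff.mp (Nat.eq_one_of_dvd_coprimes h13 h11 h12)
    rw [hn, mul_inv_eq_one, mul_inv_eq_iff_eq_mul] at h10
    exact h10.symm
  have hbW := hC hcent
  obtain ⟨m, hm⟩ := hWp ⟨_, hbW⟩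
  have hm' : b ^ p ^ m = 1 := by simpa using congrArg Subtype.val hm
  have h14 : orderOf b ∣ p ^ m := orderOf_dvd_of_pow_eq_one hm'
  have h15 : (orderOf b).Coprime (p ^ m) := Nat.Coprime.pow_right _ hbc
  have h16 : b = 1 := orderOf_eq_one_iff.mp (Nat.eq_one_of_dvd_coprimes h15 dvd_rfl h14)
  rw [h16, map_one]

end

section
variable {G : Type*} [Group G] [Finite G] {r : ℕ} [hr : Fact r.Prime]

/-- **The reduction to `𝒜(w)`.** -/
theorem lemma_L (C : Set G) (hconj : ∀ w ∈ C, ∀ g : G, g * w * g⁻¹ ∈ C)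
    (hr' : ∀ w ∈ C, (orderOf w).Coprime r)
    (hA : ∀ w ∈ C, ∀ a : G, a ∈ Subgroup.closure ({w, a * w * a⁻¹} : Set G) →
      (Nat.card (Subgroup.closure ({w, a * w * a⁻¹} : Set G))).Coprime r) :
    ∀ B : Subgroup G, Group.IsSolvable B → ∀ w ∈ C, ∀ hw : w ∈ B, (⟨w, hw⟩ : ↥B) ∈ pPrimeCore r ↥B := by
  classical
  intro B
  induction hn : Nat.card B using Nat.strong_induction_on generalizing B with
  | _ n ih =>
    intro hBs w hwC hw
    let K := ↥B
    set X := pPrimeCore r ↥B with hX
    let π : ↥B →* ↥B ⧸ X := QuotientGroup.mk' X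
    have hπ : Function.Surjective π := QuotientGroup.mk'_surjective X
    set Rt := pCore r (↥B ⧸ X) with hRt
    have hRtn : Rt.Normal := pCore_normal r _
    have hRtp : IsPGroup r Rt := pCore_isPGroup r
    have hC : Subgroup.centralizer (Rt : Set (↥B ⧸ X)) ≤ Rt :=
      centralizer_pCore_le isPSolvable_of_solvable (pPrimeCore_quotient r)
    set w' : ↥B := ⟨w, hw⟩ with hw'
    by_contra hnot
    have hπw : π w' ≠ 1 := fun h => hnot ((QuotientGroup.eq_one_iff _).mp h)
    have hwc : (orderOf (π w')).Coprime r := by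
      apply Nat.Coprime.coprime_dvd_left (orderOf_map_dvd π w')
      rw [hw', Subgroup.orderOf_mk]
      exact hr' w hwC
    have hnR : π w' ∉ Rt := by
      intro h
      obtain ⟨m, hm⟩ := hRtp ⟨_, h⟩
      have hm' : (π w') ^ r ^ m = 1 := by simpa using congrArg Subtype.val hm
      have h1 : orderOf (π w') ∣ r ^ m := orderOf_dvd_of_pow_eq_one hm'
      have h2 : (orderOf (π w')).Coprime (r ^ m) := Nat.Coprime.pow_right _ hwc
      exact hπw (orderOf_eq_one_iff.mp (Nat.eq_one_of_dvd_coprimes h2 dvd_rfl h1))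
    have hnC : π w' ∉ Subgroup.centralizer (Rt : Set (↥B ⧸ X)) := fun h => hnR (hC h)
    rw [Subgroup.mem_centralizer_iff] at hnC
    push Not at hnC
    obtain ⟨ct, hct, hnc⟩ := hnC
    obtain ⟨c', rfl⟩ := hπ ct
    set c : G := (c' : G) with hc
    have hcB : c ∈ B := c'.2
    set T := Subgroup.closure ({w, c * w * c⁻¹} : Set G) with hT
    have hTB : T ≤ B := by
      rw [hT, Subgroup.closure_le]
      intro x hx
      simp only [Set.mem_insert_iff, Set.mem_singleton_iff] at hx
      rcases hx with rfl | rfl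
      · exact hw
      · exact B.mul_mem (B.mul_mem hcB hw) (B.inv_mem hcB)
    -- the element of order divisible by `r`
    have hwT : w ∈ T := Subgroup.subset_closure (by simp)
    have hwT2 : c * w * c⁻¹ ∈ T := Subgroup.subset_closure (by simp)
    set e' : ↥B := c' * w' * c'⁻¹ * w'⁻¹ with he'
    have heT : (e' : G) ∈ T := by
      have : (e' : G) = (c * w * c⁻¹) * w⁻¹ := rfl
      rw [this]
      exact T.mul_mem hwT2 (T.inv_mem hwT)
    have hπe : π e' ∈ Rt := by
      have : π e' = π c' * (π w' * (π c')⁻¹ * (π w')⁻¹) := by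
        simp only [he', map_mul, map_inv]; group
      rw [this]
      exact Rt.mul_mem hct (hRtn.conj_mem _ (Rt.inv_mem hct) _)
    have hπe1 : π e' ≠ 1 := by
      intro h
      apply hnc
      have h1 : π c' * π w' * (π c')⁻¹ * (π w')⁻¹ = 1 := by
        rw [← h]; simp only [he', map_mul, map_inv]
      rw [mul_inv_eq_one, mul_inv_eq_iff_eq_mul] at h1
      exact h1
    have hrdvd : r ∣ Nat.card T := by
      obtain ⟨m, hm⟩ := hRtp ⟨_, hπe⟩
      have hm' : (π e') ^ r ^ m = 1 := by simpa using congrArg Subtype.val hm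
      obtain ⟨i, -, hi⟩ := (Nat.dvd_prime_pow hr.out).mp (orderOf_dvd_of_pow_eq_one hm')
      have hi0 : i ≠ 0 := by
        rintro rfl
        rw [pow_zero, orderOf_eq_one_iff] at hi
        exact hπe1 hi
      have h1 : r ∣ orderOf (π e') := by
        rw [hi]; exact dvd_pow_self r hi0
      have h2 : r ∣ orderOf e' := h1.trans (orderOf_map_dvd π e')
      have h3 : orderOf e' = orderOf (e' : G) := (Subgroup.orderOf_coe e').symm
      rw [h3] at h2
      have h4 := orderOf_dvd_natCard (⟨_, heT⟩ : T)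
      rw [Subgroup.orderOf_mk] at h4
      exact h2.trans h4
    by_cases hcT : c ∈ T
    · have := hA w hwC c hcT
      exact (Nat.Prime.coprime_iff_not_dvd hr.out).mp this.symm hrdvd
    · -- `T` is a proper subgroup
      have hTne : T ≠ B := by
        rintro h
        exact hcT (h ▸ hcB)
      have hlt : Nat.card T < n := by
        rw [← hn]
        exact Nat.lt_of_le_of_ne (Nat.le_of_dvd Nat.card_pos (Subgroup.card_dvd_of_le hTB))
          (fun h => hTne (Subgroup.eq_of_le_of_card_ge hTB h.ge))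
      have hTs : Group.IsSolvable T :=
        solvable_of_solvable_injective (f := Subgroup.inclusion hTB) (Subgroup.inclusion_injective hTB)
      have h1 := ih _ hlt T rfl hTs w hwC hwT
      have h2 := ih _ hlt T rfl hTs (c * w * c⁻¹) (hconj w hwC c) hwT2
      have hle : T ≤ (pPrimeCore r ↥T).map T.subtype := by
        rw [hT, Subgroup.closure_le, ← hT]
        intro x hx
        simp only [Set.mem_insert_iff, Set.mem_singleton_iff] at hx
        rcases hx with rfl | rfl
        · exact ⟨_, h1, rfl⟩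
        · exact ⟨_, h2, rfl⟩
      have hcard : Nat.card T ∣ Nat.card (pPrimeCore r ↥T) := by
        have h3 := Subgroup.card_dvd_of_le hle
        rwa [Subgroup.card_map_of_injective T.subtype_injective] at h3
      have hcop : (Nat.card T).Coprime r :=
        Nat.Coprime.coprime_dvd_left hcard (pPrimeCore_coprime r)
      exact (Nat.Prime.coprime_iff_not_dvd hr.out).mp hcop.symm hrdvd

end

end Cfsg.Agent.Lib.TwoGen.Tools
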